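import Mathlib
import Cfsg.Prelude.Def_Classical
import Cfsg.Prelude.Def_Sz
import Cfsg.Agent.Lib.Classical.LinearOrders
import Cfsg.Agent.Lib.SzB.Borel
import Cfsg.Agent.Lib.SzB.MinDegree
import Cfsg.Agent.Lib.SzB.Std
import Cfsg.Agent.S0280

/-!
# Sections of `GL₅(2)` of small Lie type in characteristic two
-/

set_option autoImplicit false

open scoped Matrix

namespace Cfsg.Agent.GLFive

open Polynomial (X C)

theorem card_gl_five : Nat.card (GL (Fin 5) (ZMod 2)) = 9999360 := by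
  rw [Matrix.card_GL_field]
  simp [Fin.prod_univ_five, ZMod.card]

theorem no_order_nine (g : GL (Fin 5) (ZMod 2)) : orderOf g ≠ 9 := by
  classical
  haveI : Fact (Nat.Prime 2) := ⟨Nat.prime_two⟩
  intro hg
  set M := (g : Matrix (Fin 5) (Fin 5) (ZMod 2)) with hM
  set μ := minpoly (ZMod 2) M
  have h9 : μ ∣ (X ^ 3 - 1) * (X ^ 6 + X ^ 3 + 1) := by
    apply minpoly.dvd
    have e : ((X ^ 3 - 1) * (X ^ 6 + X ^ 3 + 1) : Polynomial (ZMod 2)) = X ^ 9 - 1 := by ring
    rw [e, map_sub, map_pow, Polynomial.aeval_X, map_one, hM, ← Units.val_pow_eq_pow_val, ← hg,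
      pow_orderOf_eq_one, Units.val_one, sub_self]
  have hμ0 : μ ≠ 0 := minpoly.ne_zero (Matrix.isIntegral M)
  have hμdeg : μ.natDegree ≤ 5 := by
    have h1 := Polynomial.natDegree_le_of_dvd (Matrix.minpoly_dvd_charpoly M) M.charpoly_monic.ne_zero
    rwa [Matrix.charpoly_natDegree_eq_dim, Fintype.card_fin] at h1
  have hco : IsCoprime μ (X ^ 6 + X ^ 3 + 1) := by
    apply isCoprime_of_irreducible_dvd (fun h => hμ0 h.1)
    intro f hf hfμ hf6
    haveI := Fact.mk hf
    haveI : Module.Finite (ZMod 2) (AdjoinRoot f) := (AdjoinRoot.powerBasis hf.ne_zero).finite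
    haveI : Finite (AdjoinRoot f) := Module.finite_of_finite (ZMod 2)
    have hcard : Nat.card (AdjoinRoot f) = 2 ^ f.natDegree := by
      rw [Module.natCard_eq_pow_finrank (K := ZMod 2), Nat.card_zmod,
        (AdjoinRoot.powerBasis hf.ne_zero).finrank, AdjoinRoot.powerBasis_dim]
    set r := AdjoinRoot.root f
    have h6 : r ^ 6 + r ^ 3 + 1 = 0 := by
      obtain ⟨k, hk⟩ := hf6
      have := congrArg (AdjoinRoot.mk f) hk
      simpa [AdjoinRoot.mk_X] using this
    haveI : CharP (AdjoinRoot f) 2 := charP_of_injective_algebraMap (algebraMap (ZMod 2) _).injective 2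
    have h2 : (2 : AdjoinRoot f) = 0 := CharTwo.two_eq_zero
    have hr9 : r ^ 9 = 1 := by linear_combination (r ^ 3 - 1) * h6
    have hr3 : r ^ 3 ≠ 1 := fun h => by
      have h1 : (1 : AdjoinRoot f) = 0 := by linear_combination h6 - (r ^ 3 + 2) * h - h2
      exact one_ne_zero h1
    have hord : orderOf r = 3 ^ 2 := orderOf_eq_prime_pow (p := 3) (by simpa using hr3) (by simpa using hr9)
    have hne : r ≠ 0 := fun h => by simp [h] at hr9
    haveI : Fintype (AdjoinRoot f) := Fintype.ofFinite _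
    have hd := orderOf_dvd_of_pow_eq_one (FiniteField.pow_card_sub_one_eq_one r hne)
    rw [hord, ← Nat.card_eq_fintype_card, hcard] at hd
    have hdeg := (Polynomial.natDegree_le_of_dvd hfμ hμ0).trans hμdeg
    have hpos := hf.natDegree_pos
    interval_cases h : f.natDegree <;> norm_num at hd
  have h3 : μ ∣ X ^ 3 - 1 := hco.dvd_of_dvd_mul_right h9
  obtain ⟨k, hk⟩ := h3
  have he : Polynomial.aeval M (X ^ 3 - 1 : Polynomial (ZMod 2)) = 0 := by
    rw [hk, map_mul, minpoly.aeval, zero_mul]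
  rw [map_sub, map_pow, Polynomial.aeval_X, map_one, sub_eq_zero] at he
  have : g ^ 3 = 1 := Units.ext (by rw [Units.val_pow_eq_pow_val, he, Units.val_one])
  have h := orderOf_dvd_of_pow_eq_one this
  rw [hg] at h
  norm_num at h

theorem psl_eight_order_nine (F : Type*) [Field F] [Fintype F] (hF : Fintype.card F = 8) :
    ∃ x : Matrix.ProjectiveSpecialLinearGroup (Fin 2) F, orderOf x = 9 := by
  classical
  haveI : Fact (Nat.Prime 3) := ⟨Nat.prime_three⟩
  haveI : CharP F 2 := SzB.charTwo_of_card (m := 1) (by rw [hF]; norm_num)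
  have h2 : (2 : F) = 0 := CharTwo.two_eq_zero
  obtain ⟨t, ht⟩ : ∃ t : F, t ^ 3 = t + 1 := by
    obtain ⟨u, hu⟩ := Fintype.exists_ne_of_one_lt_card
      (show 1 < Fintype.card Fˣ by rw [Fintype.card_units, hF]; norm_num) 1
    set a : F := (u : F)
    have h7 : a ^ 7 = 1 := by
      have := FiniteField.pow_card_sub_one_eq_one a u.ne_zero
      rwa [hF] at this
    have ha1 : a + 1 ≠ 0 := fun h => hu (Units.ext (CharTwo.add_eq_zero.mp h))
    have hm : (a ^ 3 + a + 1) * (a ^ 3 + a ^ 2 + 1) = 0 := by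
      apply mul_left_cancel₀ ha1
      linear_combination h7 + (a ^ 6 + a ^ 5 + 2 * a ^ 4 + 2 * a ^ 3 + a ^ 2 + a + 1) * h2
    rcases mul_eq_zero.mp hm with h | h
    · exact ⟨a, by linear_combination h - (a + 1) * h2⟩
    · refine ⟨a⁻¹, ?_⟩
      have hi : a * a⁻¹ = 1 := mul_inv_cancel₀ u.ne_zero
      linear_combination -(a⁻¹ ^ 3) * h + a⁻¹ ^ 3 * h2 +
        ((a⁻¹ ^ 2 * a ^ 2 + a * a⁻¹ + 1) + a⁻¹ * (a * a⁻¹ + 1)) * hi
  let A : Matrix.SpecialLinearGroup (Fin 2) F :=
    ⟨!![0, 1; 1, t], by rw [Matrix.det_fin_two_of]; linear_combination -h2⟩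
  have hA : ((A : Matrix.SpecialLinearGroup (Fin 2) F) : Matrix (Fin 2) (Fin 2) F) = !![0, 1; 1, t] := rfl
  have e3 : ((A ^ 3 : Matrix.SpecialLinearGroup (Fin 2) F) : Matrix (Fin 2) (Fin 2) F) =
      !![t, 1 + t ^ 2; 1 + t ^ 2, t + 1] := by
    rw [Matrix.SpecialLinearGroup.coe_pow, hA, pow_succ, pow_two]
    ext i j
    fin_cases i <;> fin_cases j <;> simp [Matrix.mul_apply, Fin.sum_univ_two] <;>
      grind
  have e9 : A ^ (3 ^ (1 + 1)) = 1 := by
    apply Subtype.ext
    rw [show 3 ^ (1 + 1) = 3 * 3 from rfl, pow_mul, Matrix.SpecialLinearGroup.coe_pow, e3, pow_succ, pow_two,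
      Matrix.SpecialLinearGroup.coe_one]
    ext i j
    fin_cases i <;> fin_cases j <;> simp [Matrix.mul_apply, Fin.sum_univ_two] <;>
      grind
  have hnc : A ^ 3 ∉ Subgroup.center (Matrix.SpecialLinearGroup (Fin 2) F) := by
    intro h
    rw [Matrix.SpecialLinearGroup.mem_center_iff] at h
    obtain ⟨r, -, hr⟩ := h
    have h01 := congrFun (congrFun hr 0) 1
    rw [e3] at h01
    simp at h01
    have ht2 : t = 1 := by
      have : (t - 1) ^ 2 = 0 := by linear_combination h01.symm - t * h2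
      exact sub_eq_zero.mp (pow_eq_zero_iff two_ne_zero |>.mp this)
    rw [ht2] at ht
    exact one_ne_zero (show (1 : F) = 0 by linear_combination -ht)
  refine ⟨QuotientGroup.mk A, ?_⟩
  refine (orderOf_eq_prime_pow (p := 3) (n := 1) ?_ ?_).trans (by norm_num)
  · rw [pow_one, ← QuotientGroup.mk_pow, QuotientGroup.eq_one_iff]
    exact hnc
  · rw [← QuotientGroup.mk_pow, e9, QuotientGroup.mk_one]

theorem section_classification {H : Subgroup (GL (Fin 5) (ZMod 2))} {K : Subgroup ↥H} [K.Normal]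
    (hX : (∃ (n : ℕ) (F : Type) (_ : Field F) (_ : Fintype F), 2 ≤ n ∧ Fintype.card F = 2 ^ n ∧
        Nonempty (↥H ⧸ K ≃* Matrix.ProjectiveSpecialLinearGroup (Fin 2) F)) ∨
      (∃ (m : ℕ) (F : Type) (_ : Field F) (_ : Fintype F), 1 ≤ m ∧ Fintype.card F = 2 ^ (2 * m + 1) ∧
        Nonempty (↥H ⧸ K ≃* ↥(Cfsg.Lie.Sz F (2 ^ (m + 1))))) ∨
      (∃ (n : ℕ) (F : Type) (_ : Field F) (_ : Fintype F), 2 ≤ n ∧ Fintype.card F = 4 ^ n ∧
        Nonempty (↥H ⧸ K ≃* Cfsg.PSU 3 F (2 ^ n)))) :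
    ∃ (F : Type) (_ : Field F) (_ : Fintype F), Fintype.card F = 4 ∧
      Nonempty (↥H ⧸ K ≃* Matrix.ProjectiveSpecialLinearGroup (Fin 2) F) := by
  classical
  have hdvd : Nat.card (↥H ⧸ K) ∣ 9999360 := by
    rw [← card_gl_five]
    exact (Subgroup.card_quotient_dvd_card K).trans H.card_subgroup_dvd_card
  rcases hX with ⟨n, F, i1, i2, hn, hF, ⟨e⟩⟩ | ⟨m, F, i1, i2, hm, hF, ⟨e⟩⟩ | ⟨n, F, i1, i2, hn, hF, ⟨e⟩⟩
  · rw [Nat.card_congr e.toEquiv] at hdvd
    have h1 := Cfsg.Lib.Classical.LinearOrders.card_psl_mul (F := F) (n := 2) (by norm_num)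
    have h2 := Cfsg.Lib.Classical.LinearOrders.card_sl_mul (F := F) (n := 2) (by norm_num)
    rw [Fin.prod_univ_two] at h2
    have hg : Nat.gcd 2 (Fintype.card F - 1) = 1 := by
      rw [hF]
      have : 2 ∣ 2 ^ n := dvd_pow_self 2 (by omega)
      have := Nat.two_pow_pos n
      exact Nat.prime_two.coprime_iff_not_dvd.mpr (by omega)
    rw [hg, one_mul] at h1
    rw [← h1] at h2
    simp only [hF, Fin.val_zero, Fin.val_one, pow_zero, pow_one] at h2
    set c := Nat.card (Matrix.ProjectiveSpecialLinearGroup (Fin 2) F)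
    have hn10 : n ≤ 10 := by
      have hc : 2 ^ n ∣ c := by
        have hco : Nat.Coprime (2 ^ n) (2 ^ n - 1) := by
          apply Nat.Coprime.pow_left
          rw [Nat.prime_two.coprime_iff_not_dvd]
          have : 2 ∣ 2 ^ n := dvd_pow_self 2 (by omega)
          have := Nat.two_pow_pos n
          omega
        apply hco.dvd_of_dvd_mul_left
        rw [h2]
        refine Dvd.dvd.mul_left ?_ _
        rw [pow_two]
        exact Nat.dvd_sub (dvd_mul_right _ _) dvd_rfl
      by_contra hcon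
      push Not at hcon
      have : 2 ^ 11 ∣ 9999360 := ((Nat.pow_dvd_pow 2 hcon).trans hc).trans hdvd
      norm_num at this
    rcases eq_or_ne n 2 with rfl | hn2
    · exact ⟨F, i1, i2, by rw [hF]; norm_num, ⟨e⟩⟩
    exfalso
    rcases eq_or_ne n 3 with rfl | hn3
    · obtain ⟨x, hx⟩ := psl_eight_order_nine F (by rw [hF]; norm_num)
      obtain ⟨y, hy⟩ := QuotientGroup.mk_surjective (e.symm x)
      have hd : 9 ∣ orderOf (y : GL (Fin 5) (ZMod 2)) := by
        rw [Subgroup.orderOf_coe, ← hx, ← MulEquiv.orderOf_eq e.symm x, ← hy]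
        exact orderOf_map_dvd (QuotientGroup.mk' K) y
      obtain ⟨k, hk⟩ := hd
      exact no_order_nine _ (orderOf_pow_orderOf_div (x := (y : GL (Fin 5) (ZMod 2)))
        (orderOf_pos _).ne' (n := 9) ⟨k, hk⟩)
    have hc : (2 ^ n - 1) * c ∣ (2 ^ n - 1) * 9999360 := mul_dvd_mul_left _ hdvd
    rw [h2] at hc
    interval_cases n <;> first | omega | norm_num at hc
  · haveI : CharP F 2 := SzB.charTwo_of_card hF
    rw [Nat.card_congr e.toEquiv] at hdvd
    have hc : Nat.card ↥(Cfsg.Lie.Sz F (2 ^ (m + 1))) =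
        Fintype.card F ^ 2 * (Fintype.card F - 1) * (Fintype.card F ^ 2 + 1) :=
      SzB.card_group (SzB.stdTwist hF)
    rw [hc, hF] at hdvd
    have hm2 : m ≤ 2 := by
      by_contra hcon
      push Not at hcon
      have h14 : 2 ^ 11 ∣ 9999360 := by
        refine Dvd.dvd.trans ?_ (((dvd_mul_right _ _).trans (dvd_mul_right _ _)).trans hdvd)
        rw [← pow_mul]
        exact Nat.pow_dvd_pow 2 (by omega)
      norm_num at h14
    exfalso
    interval_cases m <;> norm_num at hdvd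
  · rw [Nat.card_congr e.toEquiv] at hdvd
    exfalso
    have hF' : Fintype.card F = (2 ^ n) ^ 2 := by
      rw [hF, show (4 : ℕ) = 2 ^ 2 from rfl, ← pow_mul, ← pow_mul, mul_comm]
    have h := S0280.result (q := 2 ^ n) hF' 3 (by norm_num)
    obtain ⟨c, hcc⟩ : ∃ c, Nat.card (Cfsg.PSU 3 F (2 ^ n)) = c := ⟨_, rfl⟩
    rw [hcc] at h hdvd
    simp [Finset.prod_range_succ, show Even 2 from ⟨1, rfl⟩, show ¬ Even 1 from by decide] at h
    have hg : Nat.gcd 3 (2 ^ n + 1) ∣ 3 := Nat.gcd_dvd_left _ _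
    have hd' : (2 ^ n) ^ 3 ∣ c := by
      have hco : Nat.Coprime ((2 ^ n) ^ 3) (Nat.gcd 3 (2 ^ n + 1) * (2 ^ n + 1)) := by
        apply Nat.Coprime.mul_right
        · exact ((Nat.Coprime.pow_left _ (by norm_num)).pow_left _).coprime_dvd_right hg
        · exact (Nat.coprime_self_add_right.mpr (Nat.coprime_one_right _)).pow_left _
      apply hco.dvd_of_dvd_mul_left
      rw [mul_assoc, h]
      exact dvd_mul_right _ _
    have hn3 : n ≤ 3 := by
      by_contra hcon
      push Not at hcon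
      have : 2 ^ 11 ∣ 9999360 := by
        refine Dvd.dvd.trans ?_ (hd'.trans hdvd)
        rw [← pow_mul]
        exact Nat.pow_dvd_pow 2 (by omega)
      norm_num at this
    have hc : Nat.gcd 3 (2 ^ n + 1) * ((2 ^ n + 1) * c) ∣ Nat.gcd 3 (2 ^ n + 1) * ((2 ^ n + 1) * 9999360) :=
      mul_dvd_mul_left _ (mul_dvd_mul_left _ hdvd)
    rw [h] at hc
    interval_cases n <;> norm_num at hc

end Cfsg.Agent.GLFive
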